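import Mathlib
import Cfsg.Agent.Lib.Helper49.HJO.Defs

/-!
# HJO package [CRIT]: for an involution `u ∈ Q`, `z ∈ ⟨u v⟩ ↔ [u, v]² = z`
-/

set_option autoImplicit false

namespace Cfsg.Agent.Lib.Helper76.HJO

open Cfsg.Agent.Lib.Helper49.HJO

universe u

/-- Package [CRIT] of the HJO project. -/
theorem pkgCrit (hLV : PkgLV.{u}) : PkgCrit.{u} := by
  intro G _ _ H Q K z hZ v hvH hvQ hv u hu hu2
  have hF := hLV H Q K z hZ v hvH hvQ hv
  have hui : u⁻¹ = u := inv_eq_of_mul_eq_one_left hu2
  have hy : cm v u = (u * v) * (u * v) := by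
    rw [cm, hui]
    group
  have hyL := hF.cm_mem u hu
  have hyQ : cm v u ∈ Q := hyL.1
  constructor
  · intro hz
    rcases hZ.sq _ hyQ with h1 | h1
    · exfalso
      obtain ⟨n, hn⟩ := Subgroup.mem_zpowers_iff.1 hz
      have hw2 : (u * v) ^ (2 : ℤ) = cm v u := by rw [zpow_two, hy]
      rcases Int.even_or_odd' n with ⟨j, rfl | rfl⟩
      · rw [zpow_mul, hw2] at hn
        have hy2 : (cm v u) ^ (2 : ℤ) = 1 := by
          rw [zpow_two]
          exact h1
        rcases Int.even_or_odd' j with ⟨i, rfl | rfl⟩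
        · rw [zpow_mul, hy2, one_zpow] at hn
          exact hZ.z_ne hn.symm
        · rw [zpow_add_one, zpow_mul, hy2, one_zpow, one_mul] at hn
          have hu_L := hF.ofZ u hu (Or.inr hn)
          have h2 : cm v u = 1 := by
            rw [cm, hu_L.2, ← mul_inv_rev, hu2, inv_one]
          exact hZ.z_ne (hn.symm.trans h2)
      · rw [zpow_add_one, zpow_mul, hw2] at hn
        apply hvQ
        have h3 : v = ((cm v u) ^ j * u)⁻¹ * z := by
          rw [← hn]
          group
        rw [h3]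
        exact Q.mul_mem (Q.inv_mem (Q.mul_mem (Q.zpow_mem hyQ j) hu)) hZ.zQ
    · exact h1
  · intro h
    rw [hy] at h
    have h4 : (u * v) ^ 4 = z := by
      rw [← h]
      simp only [pow_succ, pow_zero, one_mul, mul_assoc]
    rw [← h4]
    exact Subgroup.pow_mem _ (Subgroup.mem_zpowers _) 4

end Cfsg.Agent.Lib.Helper76.HJO
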