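import Mathlib
import Cfsg.Agent.Lib.Helper49.HJO.Defs

/-!
# HJO package [LV]: the set `L_v = {q ∈ Q | v q v = q⁻¹}` for an involution `v ∈ H \ Q`

`L_v` is the image of the commutator map `cm v` on `Q`, it has 8 elements, and it equals
`{q ∈ Q | cm v q ∈ {1, z}}`, an abelian subgroup.
-/

set_option autoImplicit false

namespace Cfsg.Agent.Lib.Helper76.HJO

open Cfsg.Agent.Lib.Helper49.HJO

universe u

/-- Package [LV] of the HJO project. -/
theorem pkgLV : PkgLV.{u} := by
  intro G _ _ H Q K z hZ v hvH hvQ hv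
  classical
  haveI : Fintype G := Fintype.ofFinite G
  have hvi : v⁻¹ = v := inv_eq_of_mul_eq_one_left hv
  have hzi : z⁻¹ = z := inv_eq_of_mul_eq_one_left hZ.z_sq
  have hs : ∀ x, MulAut.conj v x = v * x * v := fun x => by rw [MulAut.conj_apply, hvi]
  generalize hσ : MulAut.conj v = σ at hs
  have hcm : ∀ q, cm v q = q⁻¹ * σ q := fun q => by rw [cm, hs]
  have hσσ : ∀ x, σ (σ x) = x := by
    intro x
    rw [hs, hs]
    calc v * (v * x * v) * v = (v * v) * x * (v * v) := by group
      _ = x := by rw [hv, one_mul, mul_one]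
  have hσQ : ∀ x ∈ Q, σ x ∈ Q := by
    intro x hx
    have h := hZ.Qn v hvH x hx
    rw [hvi] at h
    rw [hs]
    exact h
  have hσfix : ∀ x, σ x = x ↔ v * x = x * v := by
    intro x
    rw [hs]
    constructor
    · intro h
      calc v * x = v * x * (v * v) := by rw [hv, mul_one]
        _ = (v * x * v) * v := by group
        _ = x * v := by rw [h]
    · intro h
      calc v * x * v = x * v * v := by rw [h]
        _ = x * (v * v) := by group
        _ = x := by rw [hv, mul_one]
  have hL : ∀ q, InL Q v q ↔ q ∈ Q ∧ σ q = q⁻¹ := fun q => by rw [InL, hs]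
  have hcmL : ∀ q ∈ Q, InL Q v (cm v q) := by
    intro q hq
    rw [hL, hcm]
    refine ⟨Q.mul_mem (Q.inv_mem hq) (hσQ q hq), ?_⟩
    rw [map_mul, map_inv, hσσ, mul_inv_rev, inv_inv]
  have hfib : ∀ q q' : G, (cm v q = cm v q' ↔ v * (q' * q⁻¹) = (q' * q⁻¹) * v) := by
    intro q q'
    rw [← hσfix, hcm, hcm, map_mul, map_inv]
    constructor
    · intro h
      calc σ q' * (σ q)⁻¹ = q' * (q'⁻¹ * σ q') * (σ q)⁻¹ := by group
        _ = q' * (q⁻¹ * σ q) * (σ q)⁻¹ := by rw [h]
        _ = q' * q⁻¹ := by group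
    · intro h
      calc q⁻¹ * σ q = q'⁻¹ * (q' * q⁻¹) * σ q := by group
        _ = q'⁻¹ * (σ q' * (σ q)⁻¹) * σ q := by rw [h]
        _ = q'⁻¹ * σ q' := by group
  -- counting
  have hC4 : (Finset.univ.filter (fun q : G => q ∈ Q ∧ v * q = q * v)).card = 4 := by
    have h := (hZ.cent v hvH hvQ hv).1
    rw [Nat.card_eq_fintype_card, Fintype.card_subtype] at h
    exact h
  have hQ32 : (Finset.univ.filter (fun q : G => q ∈ Q)).card = 32 := by
    have h : Nat.card {q : G // q ∈ Q} = 32 := hZ.cardQ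
    rw [Nat.card_eq_fintype_card, Fintype.card_subtype] at h
    exact h
  have hF : ∀ y : G, (Finset.univ.filter (fun q : G => q ∈ Q ∧ cm v q = y)).card ≤ 4 := by
    intro y
    by_cases hne : (Finset.univ.filter (fun q : G => q ∈ Q ∧ cm v q = y)).Nonempty
    · obtain ⟨q₀, hq₀⟩ := hne
      rw [Finset.mem_filter] at hq₀
      rw [← hC4]
      apply Finset.card_le_card_of_injOn (fun q => q * q₀⁻¹)
      · intro q hq
        have hq' : q ∈ Q ∧ cm v q = y := by simpa using hq
        have h1 : q * q₀⁻¹ ∈ Q ∧ v * (q * q₀⁻¹) = q * q₀⁻¹ * v :=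
          ⟨Q.mul_mem hq'.1 (Q.inv_mem hq₀.2.1), (hfib q₀ q).1 (hq₀.2.2.trans hq'.2.symm)⟩
        simpa using h1
      · intro a _ b _ hab
        exact mul_right_cancel hab
    · rw [Finset.not_nonempty_iff_eq_empty] at hne
      rw [hne]
      simp
  have h8 : 8 ≤ ((Finset.univ.filter (fun q : G => q ∈ Q)).image (cm v)).card := by
    have h := Finset.card_le_mul_card_image (Finset.univ.filter (fun q : G => q ∈ Q)) 4
      (f := cm v) (fun a _ => by rw [Finset.filter_filter]; exact hF a)
    rw [hQ32] at h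
    omega
  have hcL : (Finset.univ.filter (fun q : G => q ∈ Q)).image (cm v) ⊆
      Finset.univ.filter (fun q : G => InL Q v q) := by
    intro y hy
    obtain ⟨q, hq, rfl⟩ := Finset.mem_image.1 hy
    rw [Finset.mem_filter] at hq ⊢
    exact ⟨Finset.mem_univ _, hcmL q hq.2⟩
  have hLM : Finset.univ.filter (fun q : G => InL Q v q) ⊆
      Finset.univ.filter (fun q : G => q ∈ Q ∧ (cm v q = 1 ∨ cm v q = z)) := by
    intro q hq
    rw [Finset.mem_filter] at hq ⊢
    obtain ⟨hqQ, hq2⟩ := (hL q).1 hq.2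
    refine ⟨Finset.mem_univ _, hqQ, ?_⟩
    rw [hcm, hq2]
    rcases hZ.sq q hqQ with h | h
    · left
      rw [← mul_inv_rev, h, inv_one]
    · right
      rw [← mul_inv_rev, h, hzi]
  have hM8 : (Finset.univ.filter (fun q : G => q ∈ Q ∧ (cm v q = 1 ∨ cm v q = z))).card ≤ 8 := by
    have hsub : Finset.univ.filter (fun q : G => q ∈ Q ∧ (cm v q = 1 ∨ cm v q = z)) ⊆
        Finset.univ.filter (fun q : G => q ∈ Q ∧ cm v q = 1) ∪
          Finset.univ.filter (fun q : G => q ∈ Q ∧ cm v q = z) := by
      intro q hq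
      rw [Finset.mem_filter] at hq
      rw [Finset.mem_union, Finset.mem_filter, Finset.mem_filter]
      rcases hq.2.2 with h | h
      · exact Or.inl ⟨Finset.mem_univ _, hq.2.1, h⟩
      · exact Or.inr ⟨Finset.mem_univ _, hq.2.1, h⟩
    have h1 := Finset.card_le_card hsub
    have h2 := Finset.card_union_le (Finset.univ.filter (fun q : G => q ∈ Q ∧ cm v q = 1))
      (Finset.univ.filter (fun q : G => q ∈ Q ∧ cm v q = z))
    have h3 := hF 1
    have h4 := hF z
    omega
  have hcLc := Finset.card_le_card hcL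
  have hLMc := Finset.card_le_card hLM
  have hLMeq := Finset.eq_of_subset_of_card_le hLM (by omega)
  have hcLeq := Finset.eq_of_subset_of_card_le hcL (by omega)
  have hLiff : ∀ q, InL Q v q ↔ q ∈ Q ∧ (cm v q = 1 ∨ cm v q = z) := by
    intro q
    have h1 : q ∈ Finset.univ.filter (fun q : G => InL Q v q) ↔
        q ∈ Finset.univ.filter (fun q : G => q ∈ Q ∧ (cm v q = 1 ∨ cm v q = z)) := by
      rw [hLMeq]
    rw [Finset.mem_filter, Finset.mem_filter] at h1
    simpa using h1
  have hmul : ∀ a b, InL Q v a → InL Q v b → InL Q v (a * b) := by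
    intro a b ha hb
    rw [hLiff] at ha hb ⊢
    obtain ⟨haQ, ha2⟩ := ha
    obtain ⟨hbQ, hb2⟩ := hb
    refine ⟨Q.mul_mem haQ hbQ, ?_⟩
    have hcab : cm v (a * b) = b⁻¹ * cm v a * b * cm v b := by
      rw [hcm, hcm, hcm, map_mul]
      group
    have hzb : b⁻¹ * z * b = z := by
      have h := hZ.zc b (hZ.QH hbQ)
      calc b⁻¹ * z * b = b⁻¹ * (z * b) := by group
        _ = b⁻¹ * (b * z) := by rw [h]
        _ = z := by group
    rcases ha2 with h | h <;> rcases hb2 with h' | h'
    · left
      rw [hcab, h, h']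
      group
    · right
      rw [hcab, h, h']
      group
    · right
      rw [hcab, h, h', hzb, mul_one]
    · left
      rw [hcab, h, h', hzb, hZ.z_sq]
  exact
    { card := by
        rw [Nat.card_eq_fintype_card, Fintype.card_subtype]
        omega
      cm_mem := hcmL
      surj := fun l hl => by
        have h1 : l ∈ (Finset.univ.filter (fun q : G => q ∈ Q)).image (cm v) := by
          rw [hcLeq, Finset.mem_filter]
          exact ⟨Finset.mem_univ _, hl⟩
        obtain ⟨q, hq, rfl⟩ := Finset.mem_image.1 h1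
        exact ⟨q, (Finset.mem_filter.1 hq).2, rfl⟩
      one := ⟨Q.one_mem, by rw [mul_one, hv, inv_one]⟩
      inv := fun a ha => by
        rw [hL] at ha ⊢
        exact ⟨Q.inv_mem ha.1, by rw [map_inv, ha.2]⟩
      mul := hmul
      comm := fun a b ha hb => by
        have hab := (hL _).1 (hmul a b ha hb)
        have ha' := ((hL a).1 ha).2
        have hb' := ((hL b).1 hb).2
        have h1 : a⁻¹ * b⁻¹ = (a * b)⁻¹ := by rw [← hab.2, map_mul, ha', hb']
        have h2 : (b * a)⁻¹ = (a * b)⁻¹ := by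
          rw [mul_inv_rev]
          exact h1
        exact (inv_injective h2).symm
      ofZ := fun q hq h => (hLiff q).2 ⟨hq, h⟩
      fix := fun q hq => by
        obtain ⟨hqQ, hq2⟩ := (hL q).1 hq
        rw [← hσfix, hq2]
        constructor
        · intro h
          exact inv_eq_of_mul_eq_one_left h
        · intro h
          have h1 : q * q = q⁻¹ * q := by rw [h]
          rw [h1, inv_mul_cancel]
      fib := fun q _ q' _ => hfib q q' }

end Cfsg.Agent.Lib.Helper76.HJO
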